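import Mathlib

/-!
Integer rows orthogonal of norm nine, congruent modulo three.
-/

set_option autoImplicit false

namespace Cfsg.Agent.Recog.SelfCentNine

/-- Two congruent columns of norm nine differ in exactly two places, and are very restricted. -/
theorem pair_shape {ι : Type*} [Fintype ι] [DecidableEq ι] (x y : ι → ℤ) (e : ι)
    (hxe : x e = 1) (hye : y e = 1) (hx : ∑ i, x i ^ 2 = 9) (hy : ∑ i, y i ^ 2 = 9)
    (hxy : ∑ i, x i * y i = 0) (h3 : ∀ i, (3 : ℤ) ∣ x i - y i) :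
    (Finset.univ.filter fun i => x i ≠ y i).card = 2 ∧
    (∀ i, x i ≠ y i → (x i = 2 ∧ y i = -1) ∨ (x i = -2 ∧ y i = 1) ∨
      (x i = 1 ∧ y i = -2) ∨ (x i = -1 ∧ y i = 2)) ∧
    ∑ i ∈ Finset.univ.filter (fun i => ¬ x i ≠ y i), x i ^ 2 = 4 := by
  choose z hz using h3
  set D := Finset.univ.filter fun i => x i ≠ y i with hD
  set E := Finset.univ.filter fun i => ¬ x i ≠ y i with hE
  have hz0 : ∀ i, x i ≠ y i ↔ z i ≠ 0 := fun i => by
    have := hz i; omega
  have hz2 : ∑ i ∈ D, z i ^ 2 = 2 := by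
    have h1 : ∑ i, (x i - y i) ^ 2 = 18 := by
      simp only [sub_sq, Finset.sum_add_distrib, Finset.sum_sub_distrib, mul_assoc, ← Finset.mul_sum]
      linarith
    have h2 : ∑ i, (x i - y i) ^ 2 = 9 * ∑ i, z i ^ 2 := by
      rw [Finset.mul_sum]
      exact Finset.sum_congr rfl fun i _ => by rw [hz i]; ring
    have h3 : ∑ i ∈ D, z i ^ 2 = ∑ i, z i ^ 2 := by
      refine Finset.sum_filter_of_ne fun i _ hi => (hz0 i).2 ?_
      intro h; exact hi (by rw [h]; norm_num)
    linarith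
  have hzone : ∀ i ∈ D, z i = 1 ∨ z i = -1 := by
    intro i hi
    have hle : z i ^ 2 ≤ 2 := hz2 ▸ Finset.single_le_sum (f := fun j => z j ^ 2) (fun j _ => sq_nonneg (z j)) hi
    have hne : z i ≠ 0 := (hz0 i).1 (Finset.mem_filter.1 hi).2
    have ha : z i ≤ 1 := by nlinarith
    have hb : -1 ≤ z i := by nlinarith
    omega
  have hcard : D.card = 2 := by
    have h1 : ∑ i ∈ D, z i ^ 2 = ∑ i ∈ D, (1 : ℤ) := Finset.sum_congr rfl fun i hi => by
      rcases hzone i hi with h | h <;> rw [h] <;> norm_num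
    rw [hz2, Finset.sum_const, nsmul_one] at h1
    exact_mod_cast h1.symm
  obtain ⟨i, j, hij, hDij⟩ := Finset.card_eq_two.1 hcard
  have hsum : (x i + y i) ^ 2 + (x j + y j) ^ 2 + 4 * ∑ k ∈ E, x k ^ 2 = 18 := by
    have h1 : ∑ k, (x k + y k) ^ 2 = 18 := by
      simp only [add_sq, Finset.sum_add_distrib, mul_assoc, ← Finset.mul_sum]
      linarith
    rw [← Finset.sum_filter_add_sum_filter_not Finset.univ (fun k => x k ≠ y k), ← hD, ← hE,
      hDij, Finset.sum_pair hij] at h1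
    have h2 : ∑ k ∈ E, (x k + y k) ^ 2 = 4 * ∑ k ∈ E, x k ^ 2 := by
      rw [Finset.mul_sum]
      refine Finset.sum_congr rfl fun k hk => ?_
      rw [← not_not.1 (Finset.mem_filter.1 hk).2]; ring
    linarith
  have hdiff : z i * (x i + y i) + z j * (x j + y j) = 0 := by
    have h1 : ∑ k, (x k - y k) * (x k + y k) = 0 := by
      rw [Finset.sum_congr rfl fun k _ => (show (x k - y k) * (x k + y k) = x k ^ 2 - y k ^ 2 by ring),
        Finset.sum_sub_distrib]
      linarith
    rw [← Finset.sum_filter_add_sum_filter_not Finset.univ (fun k => x k ≠ y k), ← hD, ← hE,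
      hDij, Finset.sum_pair hij] at h1
    have h2 : ∑ k ∈ E, (x k - y k) * (x k + y k) = 0 := Finset.sum_eq_zero fun k hk => by
      rw [not_not.1 (Finset.mem_filter.1 hk).2]; ring
    rw [h2, add_zero, hz i, hz j] at h1
    linarith
  have hEe : 1 ≤ ∑ k ∈ E, x k ^ 2 := by
    have : e ∈ E := Finset.mem_filter.2 ⟨Finset.mem_univ e, by rw [hxe, hye]; simp⟩
    have h := Finset.single_le_sum (f := fun k => x k ^ 2) (fun k _ => sq_nonneg (x k)) this
    simp only [hxe, one_pow] at h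
    exact h
  have hzi := hzone i (by rw [hDij]; simp)
  have hzj := hzone j (by rw [hDij]; simp)
  have hzis : z i ^ 2 = 1 := by rcases hzi with h | h <;> rw [h] <;> norm_num
  have hzjs : z j ^ 2 = 1 := by rcases hzj with h | h <;> rw [h] <;> norm_num
  have hss : (x i + y i) ^ 2 = (x j + y j) ^ 2 := by
    have h1 : (z i * (x i + y i)) ^ 2 = (z j * (x j + y j)) ^ 2 := by
      rw [eq_neg_of_add_eq_zero_left hdiff, neg_sq]
    rwa [mul_pow, mul_pow, hzis, hzjs, one_mul, one_mul] at h1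
  have hsi : (x i + y i) = 1 ∨ (x i + y i) = -1 := by
    have ha : x i + y i ≤ 2 := by nlinarith
    have hb : -2 ≤ x i + y i := by nlinarith
    have := hz i
    rcases hzi with h | h <;> omega
  have hsj : (x j + y j) = 1 ∨ (x j + y j) = -1 := by
    have h1 : (x j + y j) ^ 2 = 1 := by
      rw [← hss]; rcases hsi with h | h <;> rw [h] <;> norm_num
    exact sq_eq_one_iff.1 h1
  refine ⟨hcard, fun k hk => ?_, ?_⟩
  · have hk' : k ∈ D := Finset.mem_filter.2 ⟨Finset.mem_univ k, hk⟩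
    rw [hDij, Finset.mem_insert, Finset.mem_singleton] at hk'
    rcases hk' with rfl | rfl
    · have := hz k; rcases hzi with h | h <;> rcases hsi with h' | h' <;> omega
    · have := hz k; rcases hzj with h | h <;> rcases hsj with h' | h' <;> omega
  · have h1 : (x i + y i) ^ 2 = 1 := by rcases hsi with h | h <;> rw [h] <;> norm_num
    linarith

/-- The arithmetic of two classes: the structure of the columns and the bound. -/
theorem two_class_bound {ι : Type*} [Fintype ι] [DecidableEq ι] (x y d : ι → ℤ) (e : ι)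
    (hxe : x e = 1) (hye : y e = 1) (hde : d e = 1) (hd : ∀ i, 0 < d i)
    (hx : ∑ i, x i ^ 2 = 9) (hy : ∑ i, y i ^ 2 = 9)
    (hxy : ∑ i, x i * y i = 0) (h3 : ∀ i, (3 : ℤ) ∣ x i - y i)
    (h9 : ∀ i, (9 : ℤ) ∣ d i + 4 * x i + 4 * y i)
    (hdx : ∑ i, d i * x i = 0) (hdy : ∑ i, d i * y i = 0) :
    (9 : ℚ) / 40 ≤ ∑ i, (x i : ℚ) ^ 2 * (y i : ℚ) / (d i : ℚ) := by
  obtain ⟨hcard, hval, hE⟩ := pair_shape x y e hxe hye hx hy hxy h3
  set D := Finset.univ.filter fun i => x i ≠ y i with hD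
  set E := Finset.univ.filter fun i => ¬ x i ≠ y i with hEdef
  obtain ⟨i, j, hij, hDij⟩ := Finset.card_eq_two.1 hcard
  have hiD : x i ≠ y i := (Finset.mem_filter.1 (show i ∈ D by rw [hDij]; simp)).2
  have hjD : x j ≠ y j := (Finset.mem_filter.1 (show j ∈ D by rw [hDij]; simp)).2
  have hsplit : ∀ f : ι → ℤ, ∑ k, f k = f i + f j + ∑ k ∈ E, f k := fun f => by
    rw [← Finset.sum_filter_add_sum_filter_not Finset.univ (fun k => x k ≠ y k) f, ← hD, hDij,
      Finset.sum_pair hij]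
  have hEeq : ∀ k ∈ E, y k = x k := fun k hk => (not_not.1 (Finset.mem_filter.1 hk).2).symm
  have heE : e ∈ E := Finset.mem_filter.2 ⟨Finset.mem_univ e, by rw [hxe, hye]; simp⟩
  -- normalise the labels
  obtain ⟨i, j, hij, hDij, hxi, hxj⟩ : ∃ i j, i ≠ j ∧ D = {i, j} ∧
      (x i = 1 ∧ y i = -2 ∨ x i = -1 ∧ y i = 2) ∧ (x j = 2 ∧ y j = -1 ∨ x j = -2 ∧ y j = 1) := by
    have hsq : x i ^ 2 + x j ^ 2 = 5 := by
      have := hsplit fun k => x k ^ 2
      linarith
    rcases hval i hiD with a | a | a | a <;> rcases hval j hjD with b | b | b | b <;>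
      (try (exfalso; rw [a.1, b.1] at hsq; norm_num at hsq; done)) <;>
      first
        | exact ⟨i, j, hij, hDij, by tauto, by tauto⟩
        | exact ⟨j, i, hij.symm, by rw [hDij, Finset.pair_comm], by tauto, by tauto⟩
  replace hsplit : ∀ f : ι → ℤ, ∑ k, f k = f i + f j + ∑ k ∈ E, f k := fun f => by
    rw [← Finset.sum_filter_add_sum_filter_not Finset.univ (fun k => x k ≠ y k) f, ← hD, hDij,
      Finset.sum_pair hij]
  set B := x i * d i with hB
  have hyi : y i = -2 * x i := by rcases hxi with h | h <;> omega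
  have hyj : x j = -2 * y j := by rcases hxj with h | h <;> omega
  have hBj : y j * d j = B := by
    have h1 := hsplit fun k => d k * x k
    have h2 := hsplit fun k => d k * y k
    have h3 : ∑ k ∈ E, d k * y k = ∑ k ∈ E, d k * x k :=
      Finset.sum_congr rfl fun k hk => by rw [hEeq k hk]
    rw [hdx, hyj] at h1
    rw [hdy, hyi, h3] at h2
    rw [hB]; linarith
  set E' := E.erase e with hE'
  have hE3 : ∑ k ∈ E', x k ^ 2 = 3 := by
    have := Finset.add_sum_erase E (fun k => x k ^ 2) heE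
    simp only [hxe, one_pow] at this
    rw [hE']; linarith
  have hsq1 : ∀ k ∈ E', x k = 0 ∨ x k ^ 2 = 1 := by
    intro k hk
    have hle : x k ^ 2 ≤ 3 := hE3 ▸ Finset.single_le_sum (f := fun l => x l ^ 2) (fun l _ => sq_nonneg (x l)) hk
    have ha : x k ≤ 1 := by nlinarith
    have hb : -1 ≤ x k := by nlinarith
    rcases (show x k = 0 ∨ x k = 1 ∨ x k = -1 by omega) with h | h | h <;> simp [h]
  have hterm : ∀ k ∈ E', -((x k : ℚ) ^ 2) / 8 ≤ (x k : ℚ) ^ 2 * (y k : ℚ) / (d k : ℚ) := by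
    intro k hk
    obtain ⟨hke, hkE⟩ := Finset.mem_erase.1 hk
    rw [hEeq k hkE]
    rcases hsq1 k hk with h | h
    · simp [h]
    · rcases sq_eq_one_iff.1 h with h' | h'
      · have : (0 : ℚ) < d k := by exact_mod_cast hd k
        rw [h']; push_cast
        have : (0 : ℚ) ≤ 1 ^ 2 * 1 / (d k : ℚ) := by positivity
        linarith
      · have h8 : 8 ≤ d k := by
          have := h9 k
          rw [hEeq k hkE, h'] at this
          have := hd k
          omega
        have hd' : (8 : ℚ) ≤ d k := by exact_mod_cast h8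
        rw [h']; push_cast
        rw [show ((-1 : ℚ)) ^ 2 * (-1) / (d k : ℚ) = -(1 / (d k : ℚ)) by ring]
        have h18 := one_div_le_one_div_of_le (by norm_num : (0 : ℚ) < 8) hd'
        linarith
  have hBterm : (x i : ℚ) ^ 2 * (y i : ℚ) / (d i : ℚ) + (x j : ℚ) ^ 2 * (y j : ℚ) / (d j : ℚ) =
      2 / (B : ℚ) := by
    have hdi : (d i : ℚ) ≠ 0 := by exact_mod_cast (hd i).ne'
    have hdj : (d j : ℚ) ≠ 0 := by exact_mod_cast (hd j).ne'
    have e1 : ((B : ℤ) : ℚ) = (x i : ℚ) * (d i : ℚ) := by rw [hB]; push_cast; ring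
    have e2 : (y j : ℚ) * (d j : ℚ) = (x i : ℚ) * (d i : ℚ) := by rw [← e1]; exact_mod_cast hBj
    have hi2 : (x i : ℚ) ^ 2 = 1 := by rcases hxi with h | h <;> rw [h.1] <;> norm_num
    have hj2 : (y j : ℚ) ^ 2 = 1 := by rcases hxj with h | h <;> rw [h.2] <;> norm_num
    have hi0 : (x i : ℚ) ≠ 0 := fun h => by rw [h] at hi2; norm_num at hi2
    have hj0 : (y j : ℚ) ≠ 0 := fun h => by rw [h] at hj2; norm_num at hj2
    rw [e1, hyi, hyj]
    push_cast
    field_simp
    grind
  have hBlow : -((2 : ℚ) / 5) ≤ 2 / (B : ℚ) := by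
    have := h9 i
    have hdi := hd i
    rcases hxi with h | h
    · have : (0 : ℚ) ≤ 2 / (B : ℚ) := by
        have : (0 : ℚ) ≤ (B : ℚ) := by exact_mod_cast (show 0 ≤ B by rw [hB, h.1]; omega)
        positivity
      linarith
    · have h5 : 5 ≤ d i := by rw [h.1, h.2] at this; omega
      have hB' : (B : ℚ) = -(d i : ℚ) := by rw [hB, h.1]; push_cast; ring
      rw [hB', div_neg]
      have hd' : (5 : ℚ) ≤ d i := by exact_mod_cast h5
      have h15 := one_div_le_one_div_of_le (by norm_num : (0 : ℚ) < 5) hd'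
      have : (2 : ℚ) / (d i : ℚ) = 2 * (1 / (d i : ℚ)) := by ring
      linarith
  have hQ : ∑ k, (x k : ℚ) ^ 2 * (y k : ℚ) / (d k : ℚ) =
      2 / (B : ℚ) + (1 + ∑ k ∈ E', (x k : ℚ) ^ 2 * (y k : ℚ) / (d k : ℚ)) := by
    rw [← Finset.sum_filter_add_sum_filter_not Finset.univ (fun k => x k ≠ y k), ← hD, hDij,
      Finset.sum_pair hij, hBterm, ← hEdef, ← Finset.add_sum_erase E _ heE, hxe, hye, hde]
    norm_num [hE']
  have hsumlow : -((3 : ℚ) / 8) ≤ ∑ k ∈ E', (x k : ℚ) ^ 2 * (y k : ℚ) / (d k : ℚ) := by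
    refine le_trans (le_of_eq ?_) (Finset.sum_le_sum hterm)
    rw [← Finset.sum_div, Finset.sum_neg_distrib, show ∑ k ∈ E', (x k : ℚ) ^ 2 = 3 from by exact_mod_cast hE3]
    ring
  linarith

/-- The arithmetic of four classes: the triple sum vanishes only for a further linear character. -/
theorem four_class_false {ι : Type*} [Fintype ι] [DecidableEq ι] (u : ι → Fin 4 → ℤ) (d : ι → ℤ)
    (e : ι) (hue : ∀ l, u e l = 1) (hde : d e = 1) (hd : ∀ i, 0 < d i)
    (hd1 : ∀ i, d i = 1 → i = e)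
    (horth : ∀ l m, ∑ i, u i l * u i m = if l = m then 9 else 0)
    (h3 : ∀ i l m, (3 : ℤ) ∣ u i l - u i m)
    (hdeg : ∀ l, ∑ i, d i * u i l = 0) :
    ∑ i, (u i 0 : ℚ) ^ 2 * (u i 1 : ℚ) / (d i : ℚ) ≠ 0 := by
  have hpair : ∀ l m : Fin 4, l ≠ m → _ := fun l m hlm =>
    pair_shape (fun i => u i l) (fun i => u i m) e (hue l) (hue m)
      (by simpa [sq] using horth l l) (by simpa [sq] using horth m m)
      (by simpa [hlm] using horth l m) (fun i => h3 i l m)
  -- a non-constant row has one entry of absolute value two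
  have hshape : ∀ i, (∀ m, u i m = u i 0) ∨
      ∃ l ε, (ε = 1 ∨ ε = -1) ∧ u i l = -2 * ε ∧ ∀ m, m ≠ l → u i m = ε := by
    intro i
    by_cases hc : ∀ m, u i m = u i 0
    · exact Or.inl hc
    · refine Or.inr ?_
      push Not at hc
      obtain ⟨m, hm⟩ := hc
      have hne : (m : Fin 4) ≠ 0 := fun h => hm (by rw [h])
      obtain ⟨l, l', hll, hv⟩ : ∃ l l', l ≠ l' ∧
          ((u i l = -2 ∧ u i l' = 1) ∨ (u i l = 2 ∧ u i l' = -1)) := by
        rcases (hpair m 0 hne).2.1 i hm with h | h | h | h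
        · exact ⟨m, 0, hne, Or.inr h⟩
        · exact ⟨m, 0, hne, Or.inl h⟩
        · exact ⟨0, m, Ne.symm hne, Or.inl h.symm⟩
        · exact ⟨0, m, Ne.symm hne, Or.inr h.symm⟩
      refine ⟨l, u i l', by omega, by omega, fun k hk => ?_⟩
      by_cases hkl : u i k = u i l
      · exfalso
        have hmem : i ∈ Finset.univ.filter (fun i => ¬ u i l ≠ u i k) :=
          Finset.mem_filter.2 ⟨Finset.mem_univ i, by simp [hkl]⟩
        have heE : e ∈ Finset.univ.filter (fun i => ¬ u i l ≠ u i k) :=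
          Finset.mem_filter.2 ⟨Finset.mem_univ e, by simp [hue]⟩
        have hie : i ≠ e := fun h => by
          have := hue l; rw [h] at hv; omega
        have h := Finset.sum_le_sum_of_subset_of_nonneg (f := fun i => u i l ^ 2)
          (show ({i, e} : Finset ι) ⊆ Finset.univ.filter (fun i => ¬ u i l ≠ u i k) by
            intro z hz; rcases Finset.mem_insert.1 hz with rfl | hz
            · exact hmem
            · rw [Finset.mem_singleton.1 hz]; exact heE)
          (fun z _ _ => sq_nonneg _)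
        rw [Finset.sum_pair hie, (hpair l k (Ne.symm hk)).2.2, hue] at h
        rcases hv with hv | hv <;> rw [hv.1] at h <;> norm_num at h
      · have := (hpair k l hk).2.1 i hkl
        omega
  -- exactly one row for each class
  let P : Fin 4 → Finset ι := fun l => Finset.univ.filter fun i => u i l ^ 2 = 4 ∧ ¬ ∀ m, u i m = u i 0
  have hP : ∀ i l, i ∈ P l → ∃ ε, (ε = 1 ∨ ε = -1) ∧ u i l = -2 * ε ∧ ∀ m, m ≠ l → u i m = ε := by
    intro i l hi
    obtain ⟨-, h4, hnc⟩ := Finset.mem_filter.1 hi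
    rcases hshape i with h | ⟨k, ε, hε, hk, hko⟩
    · exact absurd h hnc
    · by_cases hlk : l = k
      · subst hlk; exact ⟨ε, hε, hk, hko⟩
      · rw [hko l hlk] at h4
        rcases hε with rfl | rfl <;> norm_num at h4
  have hunion : ∀ l m, l ≠ m → (P l).card + (P m).card = 2 := by
    intro l m hlm
    rw [← (hpair l m hlm).1, ← Finset.card_union_of_disjoint]
    · congr 1
      ext i
      simp only [Finset.mem_union, Finset.mem_filter, Finset.mem_univ, true_and]
      constructor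
      · rintro (h | h)
        · obtain ⟨ε, hε, h1, h2⟩ := hP i l h
          rw [h1, h2 m (Ne.symm hlm)]; omega
        · obtain ⟨ε, hε, h1, h2⟩ := hP i m h
          rw [h1, h2 l hlm]; omega
      · intro hne
        have hnc : ¬ ∀ k, u i k = u i 0 := fun h => hne ((h l).trans (h m).symm)
        rcases (hpair l m hlm).2.1 i hne with h | h | h | h
        · exact Or.inl (Finset.mem_filter.2 ⟨Finset.mem_univ i, by rw [h.1]; norm_num, hnc⟩)
        · exact Or.inl (Finset.mem_filter.2 ⟨Finset.mem_univ i, by rw [h.1]; norm_num, hnc⟩)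
        · exact Or.inr (Finset.mem_filter.2 ⟨Finset.mem_univ i, by rw [h.2]; norm_num, hnc⟩)
        · exact Or.inr (Finset.mem_filter.2 ⟨Finset.mem_univ i, by rw [h.2]; norm_num, hnc⟩)
    · rw [Finset.disjoint_left]
      intro i h h'
      obtain ⟨ε, hε, h1, h2⟩ := hP i l h
      obtain ⟨ε', hε', h1', h2'⟩ := hP i m h'
      rw [h2' l hlm] at h1; omega
  have hone : ∀ l, (P l).card = 1 := by
    have a := hunion 0 1 (by decide); have b := hunion 0 2 (by decide)
    have c := hunion 1 2 (by decide); have f := hunion 0 3 (by decide)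
    intro l; fin_cases l <;> simp <;> omega
  choose χ hχ using fun l => Finset.card_eq_one.1 (hone l)
  have hχP : ∀ l, χ l ∈ P l := fun l => by rw [hχ l]; exact Finset.mem_singleton_self _
  choose ε hε hεl hεm using fun l => hP _ l (hχP l)
  have hχinj : Function.Injective χ := by
    intro l m h
    by_contra hne
    have := hεm l m (Ne.symm hne); rw [h, hεl m] at this
    have := hε l; have := hε m; omega
  set T := Finset.univ.image χ with hT
  set K := Tᶜ with hK
  have hKconst : ∀ i ∈ K, ∀ m, u i m = u i 0 := by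
    intro i hi
    rcases hshape i with h | ⟨l, δ, hδ, hl, hlo⟩
    · exact h
    · exfalso
      have : i ∈ P l := Finset.mem_filter.2 ⟨Finset.mem_univ i,
        by rw [hl]; rcases hδ with rfl | rfl <;> norm_num,
        fun h => by
          obtain ⟨k, hk⟩ := exists_ne l
          have := hlo k hk; rw [h k, ← h l, hl] at this; omega⟩
      rw [hχ l, Finset.mem_singleton] at this
      exact Finset.mem_compl.1 hi (Finset.mem_image.2 ⟨l, Finset.mem_univ l, this.symm⟩)
  have heK : e ∈ K := Finset.mem_compl.2 fun h => by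
    obtain ⟨l, -, hl⟩ := Finset.mem_image.1 h
    have := hεl l; rw [hl, hue] at this; omega
  have hsplit : ∀ {M : Type} [AddCommMonoid M] (f : ι → M),
      ∑ i, f i = (f (χ 0) + f (χ 1) + f (χ 2) + f (χ 3)) + ∑ i ∈ K, f i := fun f => by
    rw [← Finset.sum_add_sum_compl T f, hT, Finset.sum_image hχinj.injOn, Fin.sum_univ_four]
  have hsum1 : ∑ i ∈ K.erase e, u i 0 ^ 2 = 1 := by
    have h := hsplit fun i => u i 0 ^ 2
    have h9 : ∑ i, u i 0 ^ 2 = 9 := by simpa [sq] using horth 0 0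
    have e1 : ∀ l, ε l ^ 2 = 1 := fun l => by rcases hε l with h | h <;> rw [h] <;> norm_num
    rw [h9, hεl 0, hεm 1 0 (by decide), hεm 2 0 (by decide), hεm 3 0 (by decide),
      ← Finset.add_sum_erase K _ heK, hue, mul_pow, e1, e1, e1, e1] at h
    norm_num at h ⊢
    linarith
  obtain ⟨ψ, hψ, hψ1, hrest⟩ : ∃ ψ ∈ K.erase e, u ψ 0 ^ 2 = 1 ∧
      ∀ i ∈ K.erase e, i ≠ ψ → u i 0 = 0 := by
    obtain ⟨ψ, hψ, hψ0⟩ := Finset.exists_ne_zero_of_sum_ne_zero (hsum1 ▸ one_ne_zero)
    have h1 := Finset.add_sum_erase (K.erase e) (fun i => u i 0 ^ 2) hψ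
    have h2 : 0 ≤ ∑ i ∈ (K.erase e).erase ψ, u i 0 ^ 2 := Finset.sum_nonneg fun i _ => sq_nonneg _
    have h3' : 0 < u ψ 0 ^ 2 := lt_of_le_of_ne (sq_nonneg _) (Ne.symm hψ0)
    refine ⟨ψ, hψ, by omega, fun i hi hne => ?_⟩
    have h4 : ∑ i ∈ (K.erase e).erase ψ, u i 0 ^ 2 = 0 := by omega
    exact pow_eq_zero_iff (two_ne_zero) |>.1
      ((Finset.sum_eq_zero_iff_of_nonneg fun i _ => sq_nonneg _).1 h4 i (Finset.mem_erase.2 ⟨hne, hi⟩))
  obtain ⟨hψe, hψK⟩ := Finset.mem_erase.1 hψ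
  have hKsum : ∀ {M : Type} [AddCommMonoid M] (f : ι → M), (∀ i ∈ K, i ≠ e → i ≠ ψ → f i = 0) →
      ∑ i ∈ K, f i = f e + f ψ := fun f hf => by
    rw [← Finset.add_sum_erase K f heK, ← Finset.add_sum_erase _ f hψ,
      Finset.sum_eq_zero fun i hi => hf i (Finset.mem_erase.1 (Finset.mem_erase.1 hi).2).2
        (Finset.mem_erase.1 (Finset.mem_erase.1 hi).2).1 (Finset.mem_erase.1 hi).1, add_zero]
  set x := u ψ 0 with hx
  have hdl : ∀ l, 1 + d ψ * x + (ε 0 * d (χ 0) + ε 1 * d (χ 1) + ε 2 * d (χ 2) + ε 3 * d (χ 3)) -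
      3 * (ε l * d (χ l)) = 0 := by
    intro l
    have h := hsplit fun i => d i * u i l
    have hz : ∑ i ∈ K, d i * u i l = 1 + d ψ * x := by
      rw [hKsum (fun i => d i * u i l) fun i hi h1 h2 => by
        rw [hKconst i hi l, hrest i (Finset.mem_erase.2 ⟨h1, hi⟩) h2, mul_zero],
        hde, hue, hKconst ψ hψK l, one_mul]
    rw [hdeg, hz] at h
    have hv : ∀ m, d (χ m) * u (χ m) l = ε m * d (χ m) - (if m = l then 3 * (ε l * d (χ l)) else 0) := by
      intro m
      split_ifs with hml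
      · subst hml; rw [hεl]; ring
      · rw [hεm m l (Ne.symm hml)]; ring
    rw [hv, hv, hv, hv] at h
    have hs := Finset.sum_ite_eq' (Finset.univ : Finset (Fin 4)) l (fun _ => 3 * (ε l * d (χ l)))
    simp only [Finset.mem_univ, if_true, Fin.sum_univ_four] at hs
    linarith
  set A := d ψ * x with hA
  have hBl : ∀ l, ε l * d (χ l) = -(1 + A) := fun l => by
    have a := hdl 0; have b := hdl 1; have c := hdl 2; have f := hdl 3; have g := hdl l
    linarith
  have hA1 : A ≠ -1 := fun h => by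
    have h0 := hBl 0; rw [h] at h0
    have := hd (χ 0)
    rcases hε 0 with e0 | e0 <;> rw [e0] at h0 <;> simp at h0 <;> omega
  have hAne : A ≠ 1 := fun h => by
    have hdψ : d ψ = 1 := by
      have := hd ψ
      rcases sq_eq_one_iff.1 hψ1 with h' | h'
      · rw [hA, h', mul_one] at h; exact h
      · rw [hA, h'] at h; omega
    exact hψe (hd1 ψ hdψ)
  intro hR
  have h := hsplit fun i => (u i 0 : ℚ) ^ 2 * (u i 1 : ℚ) / (d i : ℚ)
  have hz : ∑ i ∈ K, (u i 0 : ℚ) ^ 2 * (u i 1 : ℚ) / (d i : ℚ) = 1 + 1 / (A : ℚ) := by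
    rw [hKsum _ fun i hi h1 h2 => by simp [hrest i (Finset.mem_erase.2 ⟨h1, hi⟩) h2],
      hKconst ψ hψK 1, hde, hue, hue, ← hx]
    have : (x : ℚ) ^ 2 = 1 := by exact_mod_cast hψ1
    have hx0 : (x : ℚ) ≠ 0 := fun h => by rw [h] at this; norm_num at this
    have hd0 : (d ψ : ℚ) ≠ 0 := by exact_mod_cast (hd ψ).ne'
    rw [hA, this]
    push_cast
    field_simp
    grind
  have hv : ∀ l, (u (χ l) 0 : ℚ) ^ 2 * (u (χ l) 1 : ℚ) / (d (χ l) : ℚ) =
      (if l = 0 then 4 else if l = 1 then -2 else 1) / (-(1 + (A : ℚ))) := by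
    intro l
    have hb : -(1 + (A : ℚ)) = (ε l : ℚ) * (d (χ l) : ℚ) := by exact_mod_cast (hBl l).symm
    have hd0 : (d (χ l) : ℚ) ≠ 0 := by exact_mod_cast (hd (χ l)).ne'
    rw [hb]
    split_ifs with h0 h1
    · subst h0; rw [hεl, hεm 0 1 (by decide)]; rcases hε 0 with e | e <;> rw [e] <;> push_cast <;> ring
    · subst h1; rw [hεl, hεm 1 0 (by decide)]; rcases hε 1 with e | e <;> rw [e] <;> push_cast <;> ring
    · rw [hεm l 0 (Ne.symm h0), hεm l 1 (Ne.symm h1)]
      rcases hε l with e | e <;> rw [e] <;> push_cast <;> ring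
  rw [hR, hz, hv, hv, hv, hv] at h
  simp at h
  have hA0 : (A : ℚ) ≠ 0 := by
    have : A ≠ 0 := mul_ne_zero (hd ψ).ne' fun h => by rw [h] at hψ1; norm_num at hψ1
    exact_mod_cast this
  have hA1' : (1 : ℚ) + (A : ℚ) ≠ 0 := by
    exact_mod_cast (show 1 + A ≠ 0 by omega)
  have : ((A : ℚ) - 1) ^ 2 = 0 := by
    field_simp at h
    grind
  exact hAne (by exact_mod_cast sub_eq_zero.1 (pow_eq_zero_iff two_ne_zero |>.1 this))

end Cfsg.Agent.Recog.SelfCentNine
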