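import Cfsg.Agent.OddChar.TICongr
import Cfsg.Agent.Chars.Orth
import Cfsg.Agent.Chars.Eigen
import Cfsg.Agent.Chars.SimpleDegreeTools
import Cfsg.Agent.Recog.SelfCentNineArith

/-!
A Sylow subgroup of order nine whose nonidentity elements all have it as centraliser.
-/

set_option autoImplicit false

open Cfsg
open scoped Classical ComplexConjugate

namespace Cfsg.Agent.Recog.SelfCentNine

set_option linter.unusedSectionVars false

variable {G : Type*} [Group G] [Fintype G]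

/-- The hypotheses. -/
structure Hyp (P : Sylow 3 G) : Prop where
  card9 : Nat.card (P : Subgroup G) = 9
  cube : ∀ a ∈ (P : Subgroup G), a ^ 3 = 1
  cent : ∀ s ∈ (P : Subgroup G), s ≠ 1 → Subgroup.centralizer ({s} : Set G) = (P : Subgroup G)

variable {P : Sylow 3 G}

theorem Hyp.comm (h : Hyp P) {a b : G} (ha : a ∈ (P : Subgroup G)) (hb : b ∈ (P : Subgroup G)) :
    a * b = b * a := by
  by_cases ha1 : a = 1
  · simp [ha1]
  · rw [← h.cent a ha ha1] at hb
    exact (Subgroup.mem_centralizer_singleton_iff.1 hb).symm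

theorem Hyp.mem_of_comm (h : Hyp P) {s a : G} (hs : s ∈ (P : Subgroup G)) (hs1 : s ≠ 1)
    (hc : a * s = s * a) : a ∈ (P : Subgroup G) := by
  rw [← h.cent s hs hs1]; exact Subgroup.mem_centralizer_singleton_iff.2 hc

theorem Hyp.mem_normalizer (h : Hyp P) {g s : G} (hs : s ∈ (P : Subgroup G)) (hs1 : s ≠ 1)
    (hg : g * s * g⁻¹ ∈ (P : Subgroup G)) : g ∈ Subgroup.normalizer ((P : Subgroup G) : Set G) := by
  have hsub : ∀ x ∈ (P : Subgroup G), g * x * g⁻¹ ∈ (P : Subgroup G) := fun x hx =>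
    h.mem_of_comm hg (fun e => hs1 (conj_eq_one_iff.1 e)) (by
      rw [show g * x * g⁻¹ * (g * s * g⁻¹) = g * (x * s) * g⁻¹ by group, h.comm hx hs]; group)
  have hmap : ((P : Subgroup G).map (MulAut.conj g).toMonoidHom) = (P : Subgroup G) := by
    refine Subgroup.eq_of_le_of_card_ge ?_ ?_
    · rintro _ ⟨y, hy, rfl⟩
      exact hsub y hy
    · exact le_of_eq (Nat.card_congr
        (Subgroup.equivMapOfInjective _ _ (MulAut.conj g).injective).toEquiv)
  rw [Subgroup.mem_normalizer_iff]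
  refine fun x => ⟨hsub x, fun hx => ?_⟩
  rw [← hmap] at hx
  obtain ⟨y, hy, hyx⟩ := hx
  have : y = x := (MulAut.conj g).injective hyx
  exact this ▸ hy

theorem Hyp.conj_mem (_h : Hyp P) {x : G} (h3 : x ^ 3 = 1) :
    ∃ g : G, g * x * g⁻¹ ∈ (P : Subgroup G) := by
  have hp : IsPGroup 3 (Subgroup.zpowers x) := by
    rintro ⟨y, hy⟩
    obtain ⟨k, rfl⟩ := Subgroup.mem_zpowers_iff.1 hy
    refine ⟨1, Subtype.ext ?_⟩
    show (x ^ k) ^ (3 ^ 1) = 1
    rw [pow_one, ← zpow_natCast, ← zpow_mul, mul_comm, zpow_mul, zpow_natCast, h3, one_zpow]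
  obtain ⟨Q, hQ⟩ := hp.exists_le_sylow
  obtain ⟨g, hg⟩ := MulAction.exists_smul_eq G P Q
  refine ⟨g⁻¹, ?_⟩
  have h1 : x ∈ ((g • P : Sylow 3 G) : Subgroup G) := hg ▸ hQ (Subgroup.mem_zpowers x)
  rw [Sylow.coe_subgroup_smul, Subgroup.mem_pointwise_smul_iff_inv_smul_mem] at h1
  simpa [MulAut.smul_def, MulAut.conj_apply, MulAut.inv_def, MulAut.conj_symm_apply] using h1

/-- Two elements of cube one whose product is a nonidentity element of the Sylow subgroup lie in
it, or are both conjugate to the inverse of the product. -/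
theorem Hyp.triangle (h : Hyp P) {y z s : G} (hs : s ∈ (P : Subgroup G)) (hs1 : s ≠ 1)
    (hy : y ^ 3 = 1) (hz : z ^ 3 = 1) (hyz : y * z = s) :
    (y ∈ (P : Subgroup G) ∧ z ∈ (P : Subgroup G)) ∨ (IsConj y s⁻¹ ∧ IsConj z s⁻¹) := by
  have hyi : y⁻¹ = y * y := inv_eq_of_mul_eq_one_right (by rw [← mul_assoc, ← pow_three']; exact hy)
  have hzi : z⁻¹ = z * z := inv_eq_of_mul_eq_one_right (by rw [← mul_assoc, ← pow_three']; exact hz)
  have hs3 : s ^ 3 = 1 := h.cube s hs
  set u := y * z⁻¹ with hu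
  set v := z⁻¹ * y with hv
  have hyzy : y * z * y = z⁻¹ * y⁻¹ * z⁻¹ := by
    have h1 : y * z * y * (z * y * z) = 1 := by
      have h' := hs3
      rw [← hyz, pow_three] at h'
      simpa [mul_assoc] using h'
    rw [eq_inv_of_mul_eq_one_left h1]; group
  have huv : Commute u v := by
    show u * v = v * u
    calc u * v = y * (z⁻¹ * z⁻¹) * y := by rw [hu, hv]; group
      _ = y * z * y := by rw [show z⁻¹ * z⁻¹ = z by rw [← mul_inv_rev, ← hzi, inv_inv]]
      _ = z⁻¹ * y⁻¹ * z⁻¹ := hyzy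
      _ = z⁻¹ * (y * y) * z⁻¹ := by rw [← hyi]
      _ = v * u := by rw [hu, hv]; group
  set A := Subgroup.closure ({u, v} : Set G) with hA
  have hAc : ∀ a ∈ A, ∀ b ∈ A, a * b = b * a := by
    have hgen : ∀ a ∈ ({u, v} : Set G), ∀ b ∈ ({u, v} : Set G), a * b = b * a := by
      intro a ha b hb
      rcases ha with rfl | rfl <;> rcases hb with rfl | rfl
      · rfl
      · exact huv.eq
      · exact huv.eq.symm
      · rfl
    have : IsMulCommutative A := Subgroup.isMulCommutative_closure hgen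
    intro a ha b hb
    exact congrArg Subtype.val (mul_comm' (⟨a, ha⟩ : A) ⟨b, hb⟩)
  have huA : u ∈ A := Subgroup.subset_closure (Set.mem_insert _ _)
  have hvA : v ∈ A := Subgroup.subset_closure (Set.mem_insert_of_mem _ rfl)
  -- conjugation by `y⁻¹`
  have hyA : ∀ a ∈ A, y⁻¹ * a * y ∈ A := by
    intro a ha
    have hle : A ≤ A.comap (MulAut.conj y⁻¹).toMonoidHom := by
      refine (Subgroup.closure_le _).2 ?_
      intro b hb
      rw [SetLike.mem_coe, Subgroup.mem_comap, MulEquiv.coe_toMonoidHom, MulAut.conj_apply, inv_inv]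
      rcases hb with rfl | rfl
      · rw [show y⁻¹ * u * y = v by rw [hu, hv]; group]; exact hvA
      · have : y⁻¹ * v * y = (u * v)⁻¹ := by
          calc y⁻¹ * v * y = y⁻¹ * z⁻¹ * (y * y) := by rw [hv]; group
            _ = y⁻¹ * z⁻¹ * y⁻¹ := by rw [← hyi]
            _ = (y * z * y)⁻¹ := by group
            _ = (u * v)⁻¹ := by
              rw [hu, hv, show y * z⁻¹ * (z⁻¹ * y) = y * (z⁻¹ * z⁻¹) * y by group,
                show z⁻¹ * z⁻¹ = z by rw [← mul_inv_rev, ← hzi, inv_inv]]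
        rw [this]; exact A.inv_mem (A.mul_mem huA hvA)
    simpa using hle ha
  have hs' : s = y * y * v⁻¹ := by
    rw [← hyz, hv]
    calc y * z = y * (y * y⁻¹) * z := by group
      _ = y * y * (z⁻¹ * y)⁻¹ := by group
  have hsA : ∀ a ∈ A, s⁻¹ * a * s ∈ A := by
    intro a ha
    rw [hs', show (y * y * v⁻¹)⁻¹ * a * (y * y * v⁻¹) = v * (y⁻¹ * (y⁻¹ * a * y) * y) * v⁻¹ by group]
    exact A.mul_mem (A.mul_mem hvA (hyA _ (hyA _ ha))) (A.inv_mem hvA)
  by_cases hfix : ∃ a ∈ A, a ≠ 1 ∧ a * s = s * a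
  · obtain ⟨a, haA, ha1, has⟩ := hfix
    have haP := h.mem_of_comm hs hs1 has
    have hAP : ∀ b ∈ A, b ∈ (P : Subgroup G) := fun b hb => h.mem_of_comm haP ha1 (hAc b hb a haA)
    have hyy : y * y ∈ (P : Subgroup G) := by
      rw [show y * y = s * v by rw [hs']; group]
      exact mul_mem hs (hAP v hvA)
    have hyP : y ∈ (P : Subgroup G) := by
      rw [← inv_inv y, hyi]; exact inv_mem hyy
    refine Or.inl ⟨hyP, ?_⟩
    rw [show z = (y⁻¹ * u)⁻¹ by rw [hu]; group]
    exact inv_mem (mul_mem (inv_mem hyP) (hAP u huA))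
  · push Not at hfix
    let f : A → A := fun a => ⟨s⁻¹ * (a : G) * s * (a : G)⁻¹,
      A.mul_mem (hsA _ a.2) (A.inv_mem a.2)⟩
    have hinj : Function.Injective f := by
      intro a b hab
      have hab' : s⁻¹ * (a : G) * s * (a : G)⁻¹ = s⁻¹ * (b : G) * s * (b : G)⁻¹ :=
        congrArg Subtype.val hab
      by_contra hne
      refine hfix ((b : G)⁻¹ * a) (A.mul_mem (A.inv_mem b.2) a.2)
        (fun e => hne (Subtype.ext (inv_mul_eq_one.1 e).symm)) ?_
      have hk : s⁻¹ * ((b : G)⁻¹ * a) * s = (b : G)⁻¹ * a := by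
        calc s⁻¹ * ((b : G)⁻¹ * a) * s = (s⁻¹ * (b : G) * s)⁻¹ * (s⁻¹ * (a : G) * s) := by group
          _ = (s⁻¹ * (b : G) * s)⁻¹ * ((s⁻¹ * (b : G) * s * (b : G)⁻¹) * a) := by
            rw [← hab']; group
          _ = _ := by group
      calc (b : G)⁻¹ * a * s = s * (s⁻¹ * ((b : G)⁻¹ * a) * s) := by group
        _ = _ := by rw [hk]
    have hall : ∀ a ∈ A, IsConj (s * a) s := by
      intro a ha
      obtain ⟨b, hb⟩ := Finite.injective_iff_surjective.1 hinj ⟨a, ha⟩
      have hb' : s⁻¹ * (b : G) * s * (b : G)⁻¹ = a := congrArg Subtype.val hb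
      refine isConj_iff.2 ⟨(b : G)⁻¹, ?_⟩
      rw [← hb']; group
    have key : ∀ w : G, IsConj (w⁻¹) s → IsConj w s⁻¹ := by
      intro w hw
      obtain ⟨c, hc⟩ := isConj_iff.1 hw
      exact isConj_iff.2 ⟨c, by rw [← hc]; group⟩
    refine Or.inr ⟨key y ?_, key z ?_⟩
    · rw [hyi, show y * y = s * v by rw [hs']; group]
      exact hall v hvA
    · rw [show z⁻¹ = y⁻¹ * u by rw [hu]; group, hyi, show y * y = s * v by rw [hs']; group, mul_assoc]
      exact hall _ (A.mul_mem hvA huA)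

/-- The elements of the Sylow subgroup conjugate to `s`. -/
noncomputable def orb (P : Sylow 3 G) (s : G) : Finset G :=
  Finset.univ.filter fun x => x ∈ (P : Subgroup G) ∧ IsConj s x

theorem mem_orb {s x : G} : x ∈ orb P s ↔ x ∈ (P : Subgroup G) ∧ IsConj s x := by simp [orb]

theorem Hyp.orb_card (h : Hyp P) {s : G} (hs : s ∈ (P : Subgroup G)) (hs1 : s ≠ 1) :
    (orb P s).card * 9 = Nat.card (Subgroup.normalizer ((P : Subgroup G) : Set G)) := by
  set N := Finset.univ.filter fun g : G => g ∈ Subgroup.normalizer ((P : Subgroup G) : Set G) with hN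
  have hNc : N.card = Nat.card (Subgroup.normalizer ((P : Subgroup G) : Set G)) := by
    rw [Nat.card_eq_fintype_card, Fintype.card_subtype, hN]
  have hmaps : ∀ g ∈ N, g * s * g⁻¹ ∈ orb P s := fun g hg =>
    mem_orb.2 ⟨(Subgroup.mem_normalizer_iff.1 (Finset.mem_filter.1 hg).2 s).1 hs, isConj_iff.2 ⟨g, rfl⟩⟩
  rw [← hNc, Finset.card_eq_sum_card_fiberwise hmaps, Finset.sum_congr rfl (g := fun _ => 9),
    Finset.sum_const, smul_eq_mul]
  intro x hx
  obtain ⟨hxP, hxc⟩ := mem_orb.1 hx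
  obtain ⟨c, hc⟩ := isConj_iff.1 hxc
  have hcN : c ∈ Subgroup.normalizer ((P : Subgroup G) : Set G) :=
    h.mem_normalizer hs hs1 (by rw [hc]; exact hxP)
  have h9 : (Finset.univ.filter fun a : G => a ∈ (P : Subgroup G)).card = 9 := by
    rw [← h.card9, Nat.card_eq_fintype_card, Fintype.card_subtype]
  rw [← h9]
  refine Finset.card_nbij' (fun g => c⁻¹ * g) (fun a => c * a) ?_ ?_ ?_ ?_
  · intro g hg
    simp only [Finset.coe_filter, Set.mem_ofPred_eq, Finset.mem_univ, true_and] at hg ⊢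
    refine h.mem_of_comm hs hs1 ?_
    calc c⁻¹ * g * s = c⁻¹ * (g * s * g⁻¹) * g := by group
      _ = c⁻¹ * x * g := by rw [hg.2]
      _ = s * (c⁻¹ * g) := by rw [← hc]; group
  · intro a ha
    simp only [Finset.coe_filter, Set.mem_ofPred_eq, Finset.mem_univ, true_and] at ha ⊢
    refine ⟨Finset.mem_filter.2 ⟨Finset.mem_univ _, mul_mem hcN (Subgroup.le_normalizer ha)⟩, ?_⟩
    rw [show c * a * s * (c * a)⁻¹ = c * (a * s) * a⁻¹ * c⁻¹ by group, h.comm ha hs, ← hc]; group
  · intro g _; simp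
  · intro a _; simp

theorem Hyp.orb_sum (h : Hyp P) :
    ∀ k : ℕ, (∀ s ∈ (P : Subgroup G), s ≠ 1 → (orb P s).card = k) → k ∣ 8 ∧
      (k = 8 → ∀ a ∈ (P : Subgroup G), ∀ b ∈ (P : Subgroup G), a ≠ 1 → b ≠ 1 → IsConj a b) := by
  intro k hk
  set S := Finset.univ.filter fun a : G => a ∈ (P : Subgroup G) ∧ a ≠ 1 with hS
  have hS8 : S.card = 8 := by
    have h9 : (Finset.univ.filter fun a : G => a ∈ (P : Subgroup G)).card = 9 := by
      rw [← h.card9, Nat.card_eq_fintype_card, Fintype.card_subtype]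
    have : S = (Finset.univ.filter fun a : G => a ∈ (P : Subgroup G)).erase 1 := by
      ext a; simp [hS, and_comm]
    rw [this, Finset.card_erase_of_mem (Finset.mem_filter.2 ⟨Finset.mem_univ _, one_mem _⟩), h9]
  have hmemS : ∀ a, a ∈ S ↔ a ∈ (P : Subgroup G) ∧ a ≠ 1 := by simp [hS]
  constructor
  · rw [← hS8, Finset.card_eq_sum_card_image (orb P) S, Finset.sum_congr rfl (g := fun _ => k),
      Finset.sum_const, smul_eq_mul]
    · exact dvd_mul_left _ _
    · intro o ho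
      obtain ⟨s, hs, rfl⟩ := Finset.mem_image.1 ho
      obtain ⟨hsP, hs1⟩ := (hmemS s).1 hs
      rw [← hk s hsP hs1]
      congr 1
      ext a
      simp only [Finset.mem_filter, hmemS, mem_orb]
      constructor
      · rintro ⟨⟨haP, ha1⟩, he⟩
        exact ⟨haP, (mem_orb.1 (he ▸ mem_orb.2 ⟨haP, IsConj.refl a⟩)).2⟩
      · rintro ⟨haP, hac⟩
        refine ⟨⟨haP, fun e => hs1 (isConj_one_left.1 (e ▸ hac))⟩, ?_⟩
        ext b
        simp only [mem_orb]
        exact ⟨fun hb => ⟨hb.1, hac.trans hb.2⟩, fun hb => ⟨hb.1, hac.symm.trans hb.2⟩⟩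
  · intro h8 a ha b hb ha1 hb1
    have hsub : orb P a ⊆ S := fun x hx => (hmemS x).2 ⟨(mem_orb.1 hx).1, fun e =>
      ha1 (isConj_one_left.1 (e ▸ (mem_orb.1 hx).2))⟩
    have : orb P a = S := Finset.eq_of_subset_of_card_le hsub (by rw [hk a ha ha1, h8, hS8])
    exact (mem_orb.1 (this ▸ (hmemS b).2 ⟨hb, hb1⟩)).2

/-- A character at an element of order three conjugate to its inverse. -/
theorem exists_int_value {χ : G → ℂ} (hχ : IsCharacter G χ) {s : G} (hs : s ^ 3 = 1)
    (hinv : IsConj s s⁻¹) : ∃ (k n : ℤ), χ s = k ∧ χ 1 = n ∧ (3 : ℤ) ∣ k - n := by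
  have hs2 : χ (s ^ 2) = χ s := by
    obtain ⟨c, hc⟩ := isConj_iff.1 hinv
    have : s ^ 2 = s⁻¹ := eq_inv_of_mul_eq_one_left (by rw [← pow_succ]; exact hs)
    rw [this, ← hc, Chars.isClassFunction_of_isCharacter hχ]
  obtain ⟨m, ρ, rfl⟩ := hχ
  obtain ⟨z, hz, hval, -, -⟩ := Chars.exists_eigenvalues ρ s
  have hz3 : ∀ i, z i ^ 3 = 1 := fun i => by
    obtain ⟨k, hk⟩ := orderOf_dvd_of_pow_eq_one hs
    rw [hk, pow_mul, hz i, one_pow]
  have hterm : ∀ i, z i + z i ^ 2 = if z i = 1 then 2 else -1 := by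
    intro i
    split_ifs with h1
    · rw [h1]; norm_num
    · have h2 : (z i - 1) * (1 + z i + z i ^ 2) = 0 := by linear_combination hz3 i
      have := (mul_eq_zero.1 h2).resolve_left (sub_ne_zero.2 h1)
      linear_combination this
  set a := (Finset.univ.filter fun i => z i = 1).card with ha
  obtain ⟨n, hn⟩ : ∃ n : ℕ, Module.finrank ℂ (Fin m → ℂ) = n := ⟨_, rfl⟩
  have h1 : ρ.character 1 = (n : ℂ) := by rw [Representation.char_one ρ, hn]
  have hsum : 2 * ρ.character s = 3 * (a : ℂ) - (n : ℂ) := by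
    calc 2 * ρ.character s = ρ.character (s ^ 1) + ρ.character (s ^ 2) := by rw [hs2, pow_one]; ring
      _ = ∑ i, (z i + z i ^ 2) := by rw [hval, hval, Finset.sum_add_distrib]; simp
      _ = ∑ i, ((if z i = 1 then (3 : ℂ) else 0) - 1) := Finset.sum_congr rfl fun i _ => by
            rw [hterm i]; split_ifs <;> norm_num
      _ = _ := by
            rw [Finset.sum_sub_distrib, ← Finset.sum_filter, Finset.sum_const, Finset.sum_const,
              Finset.card_univ, Fintype.card_fin, nsmul_eq_mul, nsmul_eq_mul, mul_one, ha,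
              show ((Module.finrank ℂ (Fin m → ℂ) : ℕ) : ℂ) = (n : ℂ) by exact_mod_cast hn]
            ring
  obtain ⟨k, hk⟩ : ∃ k : ℤ, ρ.character s = k := by
    have hint := Chars.rep_char_isIntegral ρ s
    set q : ℚ := (3 * (a : ℚ) - n) / 2 with hq
    have he : ρ.character s = algebraMap ℚ ℂ q := by
      rw [hq, eq_ratCast]; push_cast; linear_combination hsum / 2
    rw [he, isIntegral_algebraMap_iff (algebraMap ℚ ℂ).injective,
      IsIntegrallyClosed.isIntegral_iff] at hint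
    obtain ⟨k, hk⟩ := hint
    exact ⟨k, by rw [he, ← hk]; simp⟩
  refine ⟨k, n, hk, by rw [h1]; norm_cast, ?_⟩
  have : 2 * k = 3 * (a : ℤ) - n := by
    rw [hk] at hsum; exact_mod_cast hsum
  omega

end Cfsg.Agent.Recog.SelfCentNine
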